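import Cfsg.Agent.H347.HX.G23.Triple
import Cfsg.Agent.H6.QO.Frame
import Cfsg.Agent.S2101

/-!
# S2491, S2492, piece D5: the row `G₂(3)` (helper347)
-/

set_option autoImplicit false

namespace Cfsg.Agent.H347.HX.G23

open Cfsg.Agent.H6.QO Cfsg.Agent.H51.Mult

theorem rowA_zmod : RowA ↥(Lie.chevG2.group (ZMod 3)) := by
  obtain ⟨π, h1, h2, h3⟩ := Triple.univ
  exact RowA.of_univ (S2101.result (F := ZMod 3) (ZMod.card 3)) h1 (by rw [h2]; simp [Nat.card_zmod]) h3

/-- **The row `G₂(3)`** -/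
theorem rowA {F : Type} [Field F] [Fintype F] (hF : Fintype.card F = 3) : RowA ↥(Lie.chevG2.group F) := by
  classical
  have σ : ZMod 3 ≃+* F := FiniteField.ringEquivOfCardEq (by rw [ZMod.card, hF])
  exact rowA_zmod.congr (ChevalleyStructure.FieldIso.groupEquiv Lie.chevG2 σ)

end Cfsg.Agent.H347.HX.G23
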