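import Cfsg.Agent.H347.HX.G23.Main
import Cfsg.Agent.H64.G23Perm
import Cfsg.Agent.H64.G23Upper
import Cfsg.Agent.H64.CrossChev
import Cfsg.Agent.H777.Ore.Base

/-!
# Every element of the triple cover `3.G₂(3)` is a commutator (helper347)

`L`: the group generated by the six involutions of `Trip` (1053 points) and of `A` (364 points); the second component is
a surjection onto `G₂(3)` with kernel of order three.  The first member `u` of the commutators `[u, v]` of the class list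
is conjugate to `u z`.
-/

set_option autoImplicit false
set_option maxRecDepth 100000

namespace Cfsg.Agent.H347.HX.G23.Triple

open Cfsg.Agent.GTwoThree Cfsg.Agent.H64.G23Abs Cfsg.Agent.H51.Mult Cfsg.Agent.H777.Ore
open scoped commutatorElement

section prod

variable {J J' : Type*} [Group J] [Group J'] {a b c d r t : J} {a' b' c' d' r' t' : J'}

theorem relC_prod (h : RelC a b c d r t) (h' : RelC a' b' c' d' r' t') :
    RelC (a, a') (b, b') (c, c') (d, d') (r, r') (t, t') where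
  a3 := Prod.ext h.a3 h'.a3
  c3 := Prod.ext h.c3 h'.c3
  b4 := Prod.ext h.b4 h'.b4
  bd2 := Prod.ext h.bd2 h'.bd2
  rr := Prod.ext h.rr h'.rr
  tt := Prod.ext h.tt h'.tt
  ad := Prod.ext h.ad h'.ad
  bc := Prod.ext h.bc h'.bc
  bd := Prod.ext h.bd h'.bd
  ab3 := Prod.ext h.ab3 h'.ab3
  cd3 := Prod.ext h.cd3 h'.cd3
  za := Prod.ext h.za h'.za
  zc := Prod.ext h.zc h'.zc
  ra := Prod.ext h.ra h'.ra
  rb := Prod.ext h.rb h'.rb
  rc := Prod.ext h.rc h'.rc
  rd := Prod.ext h.rd h'.rd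
  bt3 := Prod.ext h.bt3 h'.bt3
  te := Prod.ext h.te h'.te
  tz := Prod.ext h.tz h'.tz
  k1 := Prod.ext h.k1 h'.k1
  k2 := Prod.ext h.k2 h'.k2
  k3 := Prod.ext h.k3 h'.k3

end prod

/-- the ambient group -/
abbrev Am : Type := Equiv.Perm (Fin 1053) × A

/-- letters -/
def S (j : ℕ) : Am := (H64.G23Perm.S j, s j)

theorem ev_fst (w : List ℕ) : (ev S w).1 = H64.G23Perm.ev w := ev_map S (MonoidHom.fst _ _) w

theorem ev_snd (w : List ℕ) : (ev S w).2 = ev s w := ev_map S (MonoidHom.snd _ _) w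

theorem ev_eq (w : List ℕ) : ev S w = (H64.G23Perm.ev w, ev s w) := Prod.ext (ev_fst w) (ev_snd w)

theorem relC' : RelC (ev S [0, 1]) (ev S [0, 2]) (ev S [0, 3]) (ev S [0, 4]) (ev S [0]) (ev S [5]) := by
  simp only [ev_eq]
  exact relC_prod H64.G23Perm.relC (ofRel rel)

/-- the generators -/
abbrev gens : Set Am := {ev S [0, 1], ev S [0, 2], ev S [0, 3], ev S [0, 4], ev S [0], ev S [5]}

/-- **The group** `3.G₂(3)` -/
abbrev L : Subgroup Am := Subgroup.closure gens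

theorem mem_a : ev S [0, 1] ∈ L := Subgroup.subset_closure (by simp [gens])
theorem mem_b : ev S [0, 2] ∈ L := Subgroup.subset_closure (by simp [gens])
theorem mem_c : ev S [0, 3] ∈ L := Subgroup.subset_closure (by simp [gens])
theorem mem_d : ev S [0, 4] ∈ L := Subgroup.subset_closure (by simp [gens])
theorem mem_r : ev S [0] ∈ L := Subgroup.subset_closure (by simp [gens])
theorem mem_t : ev S [5] ∈ L := Subgroup.subset_closure (by simp [gens])

theorem relC_lift : RelC (⟨_, mem_a⟩ : L) ⟨_, mem_b⟩ ⟨_, mem_c⟩ ⟨_, mem_d⟩ ⟨_, mem_r⟩ ⟨_, mem_t⟩ where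
  a3 := Subtype.ext relC'.a3
  c3 := Subtype.ext relC'.c3
  b4 := Subtype.ext relC'.b4
  bd2 := Subtype.ext relC'.bd2
  rr := Subtype.ext relC'.rr
  tt := Subtype.ext relC'.tt
  ad := Subtype.ext relC'.ad
  bc := Subtype.ext relC'.bc
  bd := Subtype.ext relC'.bd
  ab3 := Subtype.ext relC'.ab3
  cd3 := Subtype.ext relC'.cd3
  za := Subtype.ext relC'.za
  zc := Subtype.ext relC'.zc
  ra := Subtype.ext relC'.ra
  rb := Subtype.ext relC'.rb
  rc := Subtype.ext relC'.rc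
  rd := Subtype.ext relC'.rd
  bt3 := Subtype.ext relC'.bt3
  te := Subtype.ext relC'.te
  tz := Subtype.ext relC'.tz
  k1 := Subtype.ext relC'.k1
  k2 := Subtype.ext relC'.k2
  k3 := Subtype.ext relC'.k3

theorem closure_lift : Subgroup.closure {(⟨_, mem_a⟩ : L), ⟨_, mem_b⟩, ⟨_, mem_c⟩, ⟨_, mem_d⟩, ⟨_, mem_r⟩,
    ⟨_, mem_t⟩} = ⊤ := by
  have h1 := Subgroup.closure_closure_coe_preimage (k := gens)
  have h2 : (Subtype.val : L → Am) ⁻¹' gens = {(⟨_, mem_a⟩ : L), ⟨_, mem_b⟩, ⟨_, mem_c⟩,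
      ⟨_, mem_d⟩, ⟨_, mem_r⟩, ⟨_, mem_t⟩} := by
    ext x
    simp only [gens, Set.mem_preimage, Set.mem_insert_iff, Set.mem_singleton_iff, Subtype.ext_iff]
  rw [← h2]
  exact h1

/-- the projection to `G₂(3)` -/
def ψ : L →* A := (MonoidHom.snd _ _).comp L.subtype

theorem ψ_apply (x : L) : ψ x = (x : Am).2 := rfl

theorem ψ_surj : Function.Surjective ψ := by
  rw [← MonoidHom.range_eq_top, eq_top_iff, ← iso.1, Subgroup.closure_le]
  rintro x (rfl | rfl | rfl | rfl | rfl | rfl)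
  · exact ⟨⟨_, mem_a⟩, ev_snd _⟩
  · exact ⟨⟨_, mem_b⟩, ev_snd _⟩
  · exact ⟨⟨_, mem_c⟩, ev_snd _⟩
  · exact ⟨⟨_, mem_d⟩, ev_snd _⟩
  · exact ⟨⟨_, mem_r⟩, ev_snd _⟩
  · exact ⟨⟨_, mem_t⟩, ev_snd _⟩

theorem fst_mem (x : L) : (x : Am).1 ∈ H64.G23Perm.Trip := by
  have h1 : L ≤ (H64.G23Perm.Trip).comap (MonoidHom.fst _ _) := by
    rw [Subgroup.closure_le]
    rintro x (rfl | rfl | rfl | rfl | rfl | rfl)
    · refine Subgroup.mem_comap.2 ?_; rw [MonoidHom.coe_fst, ev_fst]; exact H64.G23Perm.mem_a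
    · refine Subgroup.mem_comap.2 ?_; rw [MonoidHom.coe_fst, ev_fst]; exact H64.G23Perm.mem_b
    · refine Subgroup.mem_comap.2 ?_; rw [MonoidHom.coe_fst, ev_fst]; exact H64.G23Perm.mem_c
    · refine Subgroup.mem_comap.2 ?_; rw [MonoidHom.coe_fst, ev_fst]; exact H64.G23Perm.mem_d
    · refine Subgroup.mem_comap.2 ?_; rw [MonoidHom.coe_fst, ev_fst]; exact H64.G23Perm.mem_r
    · refine Subgroup.mem_comap.2 ?_; rw [MonoidHom.coe_fst, ev_fst]; exact H64.G23Perm.mem_t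
  exact h1 x.2

/-- the central element -/
def z : L := ⁅(⟨_, mem_a⟩ : L), ⟨_, mem_c⟩⁆

theorem z_fst : (z : Am).1 = ⁅H64.G23Perm.ev [0, 1], H64.G23Perm.ev [0, 3]⁆ := by
  show ⁅(ev S [0, 1]).1, (ev S [0, 3]).1⁆ = _
  rw [ev_fst, ev_fst]

theorem z_snd : (z : Am).2 = 1 := by
  show ⁅(ev S [0, 1]).2, (ev S [0, 3]).2⁆ = _
  rw [ev_snd, ev_snd, commutatorElement_eq_one_iff_mul_comm]
  exact rel.ac

theorem z_center : z ∈ Subgroup.center L := by
  rw [Subgroup.mem_center_iff]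
  intro g
  apply Subtype.ext
  refine Prod.ext ?_ ?_
  · show (g : Am).1 * (z : Am).1 = (z : Am).1 * (g : Am).1
    rw [z_fst]
    exact H64.G23Perm.comm_center _ (fst_mem g)
  · show (g : Am).2 * (z : Am).2 = (z : Am).2 * (g : Am).2
    rw [z_snd, mul_one, one_mul]

theorem z_ne : z ≠ 1 := by
  intro h
  apply H64.G23Perm.comm_ne
  rw [← z_fst, h]
  rfl

theorem exists_pi : ∃ π : L →* ↥(Lie.chevG2.group (ZMod 3)), PCE π ∧ 3 ∣ Nat.card π.ker := by
  obtain ⟨a', b', c', d', r', t', h', ha', hgen'⟩ := Model.model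
  have hsimp : IsSimpleGroup ↥(Lie.chevG2.group (ZMod 3)) := H845.GTwoIso.isSimple_chev
  exact exists_pce relC_lift closure_lift z_center z_ne h' ha' hgen'

/-- the multiplier of `G₂(3)` has order three -/
theorem card_ker_dvd {D : Type} [Group D] [Finite D] {π : D →* ↥(Lie.chevG2.group (ZMod 3))} (h : PCE π) :
    Nat.card π.ker ∣ 3 := by
  refine (bound (n := 3) (by norm_num) (fun r hr => ?_) h).2
  by_cases h3 : r = 3
  · subst h3
    rw [hr.factorization_self]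
    exact Cfsg.Agent.H64.G23Upper.bd
  · exact (NoCov.bd hr (Cfsg.Agent.H64.CrossChev.noCov_G2 (ZMod 3) 3 hr h3)).mono (Nat.zero_le _)

theorem card_L : Nat.card L = 3 * 4245696 := by
  obtain ⟨π, h1, h2⟩ := exists_pi
  have h3 : Nat.card π.ker = 3 := Nat.dvd_antisymm (card_ker_dvd h1) h2
  have h4 := Subgroup.card_eq_card_quotient_mul_card_subgroup π.ker
  rw [h3, Nat.card_congr (QuotientGroup.quotientKerEquivOfSurjective π h1.surj).toEquiv,
    H845.GTwoIso.card_chev] at h4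
  rw [h4]

theorem card_ker : Nat.card ψ.ker = 3 := by
  have h4 := Subgroup.card_eq_card_quotient_mul_card_subgroup ψ.ker
  rw [Nat.card_congr (QuotientGroup.quotientKerEquivOfSurjective ψ ψ_surj).toEquiv, card_A, card_L] at h4
  omega

theorem ker_eq {w : L} (hw : w ∈ ψ.ker) (h1 : w ≠ 1) : Subgroup.zpowers w = ψ.ker := by
  have : Fact (Nat.Prime 3) := ⟨by norm_num⟩
  have hle : Subgroup.zpowers w ≤ ψ.ker := by rwa [Subgroup.zpowers_le]
  apply Subgroup.eq_of_le_of_card_ge hle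
  rw [card_ker]
  have h2 : Nat.card (Subgroup.zpowers w) ∣ 3 := by
    rw [← card_ker]
    exact Subgroup.card_dvd_of_le hle
  rcases (Nat.dvd_prime (by norm_num)).1 h2 with h3 | h3
  · exfalso
    apply h1
    rw [Subgroup.card_eq_one, Subgroup.zpowers_eq_bot] at h3
    exact h3
  · omega

theorem ker_le : ψ.ker ≤ Subgroup.center L := by
  rw [← ker_eq (w := z) z_snd z_ne, Subgroup.zpowers_le]
  exact z_center

/-- a conjugating word: `c u c⁻¹ = u w` with `1 ≠ w` central -/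
def wc : List ℕ := [3, 0]

theorem mem_ev (w : List ℕ) (hw : ∀ j ∈ w, j < 6) : ev S w ∈ L := by
  have h0 : ∀ j < 6, S j ∈ L := by
    have e0 : S 0 ∈ L := by simpa [ev] using mem_r
    have key : ∀ j, ev S [0, j] ∈ L → S j ∈ L := by
      intro j hj
      rw [ev_cons, ev_cons, ev_nil, mul_one] at hj
      exact (Subgroup.mul_mem_cancel_left _ e0).1 hj
    intro j hj
    interval_cases j
    · exact e0
    · exact key 1 mem_a
    · exact key 2 mem_b
    · exact key 3 mem_c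
    · exact key 4 mem_d
    · simpa [ev] using mem_t
  induction w with
  | nil => rw [ev_nil]; exact one_mem _
  | cons l w ih =>
    rw [ev_cons]
    exact mul_mem (h0 l (hw l (by simp))) (ih fun j hj => hw j (by simp [hj]))

/-- the first member of the commutators -/
def u : L := ⟨ev S wu, mem_ev _ (by decide)⟩

/-- the conjugating element -/
def c : L := ⟨ev S wc, mem_ev _ (by decide)⟩

theorem comm_snd : ψ (c * u) = ψ (u * c) := by
  show (ev S wc).2 * (ev S wu).2 = (ev S wu).2 * (ev S wc).2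
  rw [ev_snd, ev_snd, mulw, mulw]
  exact key (by decide +kernel)

theorem comm_fst : c * u ≠ u * c := by
  intro h
  have h1 : (ev S wc).1 * (ev S wu).1 = (ev S wu).1 * (ev S wc).1 := congrArg (fun x : L => (x : Am).1) h
  rw [ev_fst, ev_fst, H64.G23Perm.mulw, H64.G23Perm.mulw] at h1
  have h2 := congrArg (fun x : Equiv.Perm (Fin 1053) => (x 0 : ℕ)) h1
  rw [H64.G23Perm.ev_val, H64.G23Perm.ev_val] at h2
  revert h2
  decide +kernel

/-- the central element moved by `c` -/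
def w : L := u⁻¹ * (c * u * c⁻¹)

theorem w_ker : w ∈ ψ.ker := by
  rw [MonoidHom.mem_ker, w, map_mul, map_mul, comm_snd, map_mul, map_inv, map_inv]
  group

theorem w_ne : w ≠ 1 := by
  intro h
  apply comm_fst
  have h1 : c * u * c⁻¹ = u := by
    have := congrArg (fun x => u * x) h
    simpa [w, mul_assoc] using this
  exact (mul_inv_eq_iff_eq_mul.1 h1)

theorem exists_conj {k : L} (hk : k ∈ ψ.ker) : ∃ d : L, d * u * d⁻¹ = u * k := by
  rw [← ker_eq w_ker w_ne, Subgroup.mem_zpowers_iff] at hk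
  obtain ⟨n, rfl⟩ := hk
  have hw : ∀ x : L, x * w = w * x := Subgroup.mem_center_iff.1 (ker_le w_ker)
  have h1 : c * u * c⁻¹ = u * w := by unfold w; group
  refine ⟨c ^ n, ?_⟩
  have hnat : ∀ m : ℕ, c ^ m * u * (c ^ m)⁻¹ = u * w ^ m := by
    intro m
    induction m with
    | zero => simp
    | succ m ih =>
      have e : c ^ (m + 1) * u * (c ^ (m + 1))⁻¹ = c * (c ^ m * u * (c ^ m)⁻¹) * c⁻¹ := by
        rw [pow_succ']; group
      rw [e, ih]
      have e2 : c * (u * w ^ m) * c⁻¹ = (c * u * c⁻¹) * w ^ m := by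
        have h3 : Commute c (w ^ m) := (show Commute c w from hw c).pow_right m
        calc c * (u * w ^ m) * c⁻¹ = c * u * (w ^ m * c⁻¹) := by group
          _ = c * u * (c⁻¹ * w ^ m) := by rw [(h3.inv_left).eq]
          _ = _ := by group
      rw [e2, h1, pow_succ', mul_assoc]
  rcases n with m | m
  · simpa using hnat m
  · have h2 := hnat (m + 1)
    have hcw : Commute (c ^ (m + 1)) (w ^ (m + 1)) := ((show Commute c w from hw c).pow_pow _ _)
    rw [zpow_negSucc, zpow_negSucc, inv_inv]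
    have h3 : u = (c ^ (m + 1))⁻¹ * (u * w ^ (m + 1)) * c ^ (m + 1) := by
      rw [← h2]; group
    have h4 : (c ^ (m + 1))⁻¹ * (u * w ^ (m + 1)) * c ^ (m + 1) =
        (c ^ (m + 1))⁻¹ * u * c ^ (m + 1) * w ^ (m + 1) := by
      rw [mul_assoc, mul_assoc, ← hcw.eq]; group
    rw [h4] at h3
    rw [eq_mul_inv_iff_mul_eq]
    exact h3.symm

/-- **Every element of `3.G₂(3)` is a commutator** -/
theorem allC : AllC L := by
  intro g
  obtain ⟨v, hv, hc⟩ := classes (ψ g)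
  obtain ⟨d, hd⟩ := isConj_iff.1 hc
  obtain ⟨d', rfl⟩ := ψ_surj d
  obtain ⟨v', hv'⟩ := ψ_surj (ev s v)
  have hu : ψ u = ev s wu := ev_snd wu
  -- `g = d' [u, v'] d'⁻¹ k`
  set k := (d' * (u * v' * u⁻¹ * v'⁻¹) * d'⁻¹)⁻¹ * g with hkdef
  have hk : k ∈ ψ.ker := by
    rw [MonoidHom.mem_ker, hkdef]
    simp only [map_mul, map_inv, hu, hv']
    rw [← wr_eq, hd, inv_mul_cancel]
  have hkc : ∀ x : L, x * k = k * x := Subgroup.mem_center_iff.1 (ker_le hk)
  have hkc' : ∀ x : L, x * k⁻¹ = k⁻¹ * x := Subgroup.mem_center_iff.1 (ker_le (inv_mem hk))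
  obtain ⟨e, he⟩ := exists_conj (inv_mem hk)
  have h1 : IsC (u * v' * u⁻¹ * v'⁻¹ * k) := by
    refine ⟨u, v' * e, ?_⟩
    have h2 : e * u⁻¹ * e⁻¹ = u⁻¹ * k := by
      have h3 : e * u⁻¹ * e⁻¹ = (e * u * e⁻¹)⁻¹ := by group
      rw [h3, he, mul_inv_rev, inv_inv, hkc]
    calc u * v' * u⁻¹ * v'⁻¹ * k = u * v' * u⁻¹ * (v'⁻¹ * k) := by group
      _ = u * v' * u⁻¹ * (k * v'⁻¹) := by rw [hkc]
      _ = u * v' * (u⁻¹ * k) * v'⁻¹ := by group
      _ = u * v' * (e * u⁻¹ * e⁻¹) * v'⁻¹ := by rw [h2]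
      _ = u * (v' * e) * u⁻¹ * (v' * e)⁻¹ := by group
  have h5 : g = d' * (u * v' * u⁻¹ * v'⁻¹ * k) * d'⁻¹ := by
    have h6 : g = d' * (u * v' * u⁻¹ * v'⁻¹) * d'⁻¹ * k := by rw [hkdef]; group
    rw [h6]
    calc d' * (u * v' * u⁻¹ * v'⁻¹) * d'⁻¹ * k = d' * (u * v' * u⁻¹ * v'⁻¹) * (d'⁻¹ * k) := by group
      _ = d' * (u * v' * u⁻¹ * v'⁻¹) * (k * d'⁻¹) := by rw [hkc]
      _ = _ := by group
  rw [h5]
  exact h1.conj d'

/-- **The universal cover of `G₂(3)`**: kernel of order three, every element is a commutator -/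
theorem univ : ∃ π : L →* ↥(Lie.chevG2.group (ZMod 3)), PCE π ∧ Nat.card π.ker = 3 ∧ AllC L := by
  obtain ⟨π, h1, h2⟩ := exists_pi
  exact ⟨π, h1, Nat.dvd_antisymm (card_ker_dvd h1) h2, allC⟩

end Cfsg.Agent.H347.HX.G23.Triple
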